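import Cfsg.Agent.Lib.Helper36.ChevPoinT
import Cfsg.Agent.Lib.Helper18.ChevTabData

/-!
# The Poincaré series of the Weyl group of type B2 (generated tables)
-/

set_option autoImplicit false
set_option maxRecDepth 100000

namespace Cfsg.Agent.Lib.Helper36

open Cfsg.Lie Cfsg.Agent.Lib.Helper18 Finset

def pstepB2_0 : PStep where
  m := 4
  K := 3
  J := 2
  β := 7
  X := 0x2010403060507030501070006020404060207000501030706050403020100
  tr := 0x502010302000501
  par := 0x2010100000000
  inv := 0x102000003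
  Bm := 0x10
  pl := [1, 1, 1, 1]

theorem pstepB2_0_c1 : pstepB2_0.chk1 8 = true := by decide +kernel
theorem pstepB2_0_c2 : pstepB2_0.chk2 8 2 reflTB2 = true := by decide +kernel
theorem pstepB2_0_c3 : pstepB2_0.chk3 2 = true := by decide +kernel
theorem pstepB2_0_c4 : pstepB2_0.chk4 8 = true := by decide +kernel
theorem pstepB2_0_c5 : pstepB2_0.chk5 8 2 reflTB2 = true := by decide +kernel
theorem pstepB2_0_c7 : pstepB2_0.chk7 8 = true := by decide +kernel
theorem pstepB2_0_c8 : pstepB2_0.chk8 8 = true := by decide +kernel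
theorem pstepB2_0_ok : StepOK pstepB2_0 8 2 reflTB2 := ⟨pstepB2_0_c1, pstepB2_0_c2, pstepB2_0_c3, pstepB2_0_c4, pstepB2_0_c5, pstepB2_0_c7, pstepB2_0_c8⟩

def pstepB2_1 : PStep where
  m := 2
  K := 2
  J := 0
  β := 2
  X := 0x7050603040102000706050403020100
  tr := 0x100
  par := 0x1000000
  inv := 0x100
  Bm := 0x0
  pl := [1, 1]

theorem pstepB2_1_c1 : pstepB2_1.chk1 8 = true := by decide +kernel
theorem pstepB2_1_c2 : pstepB2_1.chk2 8 2 reflTB2 = true := by decide +kernel
theorem pstepB2_1_c3 : pstepB2_1.chk3 2 = true := by decide +kernel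
theorem pstepB2_1_c4 : pstepB2_1.chk4 8 = true := by decide +kernel
theorem pstepB2_1_c5 : pstepB2_1.chk5 8 2 reflTB2 = true := by decide +kernel
theorem pstepB2_1_c7 : pstepB2_1.chk7 8 = true := by decide +kernel
theorem pstepB2_1_c8 : pstepB2_1.chk8 8 = true := by decide +kernel
theorem pstepB2_1_ok : StepOK pstepB2_1 8 2 reflTB2 := ⟨pstepB2_1_c1, pstepB2_1_c2, pstepB2_1_c3, pstepB2_1_c4, pstepB2_1_c5, pstepB2_1_c7, pstepB2_1_c8⟩

theorem chainB2 : PChain 8 2 reflTB2 3 [pstepB2_0, pstepB2_1] :=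
  (PChain.cons _ _ pstepB2_0_ok (PChain.cons _ _ pstepB2_1_ok PChain.nil))

open Classical in
/-- The Poincaré series of the Weyl group of type B2. -/
theorem poincareB2 (q : ℕ) :
    ∑ w ∈ univ.filter (fun w => w ∈ weylPerm tabB2), q ^ len chevB2 w =
      ([2, 4].map fun d => ∑ i ∈ range d, q ^ i).prod :=
  poincare_of_chain tabB2 agreeB2 3 _ chainB2 (by decide) _ (by decide +kernel) q

end Cfsg.Agent.Lib.Helper36
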