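import Cfsg.Agent.Lib.Helper36.ChevPoinG2
import Cfsg.Agent.Lib.Helper36.ChevPoinB2
import Cfsg.Agent.Lib.Helper36.ChevPoinD4
import Cfsg.Agent.Lib.Helper36.ChevPoinF4
import Cfsg.Agent.Lib.Helper36.ChevPoinE6
import Cfsg.Agent.Lib.Helper36.ChevPoinE7
import Cfsg.Agent.Lib.Helper36.ChevPoinE8
import Cfsg.Agent.Lib.Helper18.ChevMon

/-!
# The Poincaré series of the Weyl groups of the seven tabulated types: summary

`poincareG2`, …, `poincareE8 (q : ℕ) : ∑ w ∈ univ.filter (· ∈ weylPerm tabX), q ^ len chevX w = ∏_d (1 + q + … + q^(d-1))`.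
-/

set_option autoImplicit false

namespace Cfsg.Agent.Lib.Helper36

open Cfsg.Lie Cfsg.Agent.Lib.Helper18 Finset

variable {D : ChevalleyDatum}

/-- a product of fundamental reflections acts on the roots as `wAct` -/
theorem prod_sPerm_apply (hT : Tab D) (L : List ℕ) (hL : ∀ i ∈ L, i < D.rank) (r : Fin D.nroots) :
    (((L.map (sPerm hT)).prod r : Fin D.nroots) : ℕ) = wAct D L r := by
  induction L with
  | nil => rfl
  | cons i L ih =>
    rw [List.map_cons, List.prod_cons, Equiv.Perm.mul_apply, sPerm_apply hT (hL i List.mem_cons_self),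
      ih (fun j hj => hL j (List.mem_cons_of_mem _ hj))]
    rfl

theorem prod_sPerm_mem (hT : Tab D) (L : List ℕ) (hL : ∀ i ∈ L, i < D.rank) :
    (L.map (sPerm hT)).prod ∈ weylPerm hT := by
  apply Subgroup.list_prod_mem
  intro x hx
  obtain ⟨i, hi, rfl⟩ := List.mem_map.mp hx
  exact Subgroup.subset_closure ⟨i, hL i hi, rfl⟩

/-- every element of the Weyl group is a product of fundamental reflections -/
theorem exists_word_of_mem (hT : Tab D) (w : Equiv.Perm (Fin D.nroots)) (hw : w ∈ weylPerm hT) :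
    ∃ L : List ℕ, (∀ i ∈ L, i < D.rank) ∧ w = (L.map (sPerm hT)).prod := by
  induction hw using Subgroup.closure_induction_left with
  | one => exact ⟨[], by simp, rfl⟩
  | mul_left s hs y _ ih =>
    obtain ⟨k, hk, rfl⟩ := hs
    obtain ⟨L, hL, rfl⟩ := ih
    refine ⟨k :: L, ?_, by simp⟩
    intro i hi
    rcases List.mem_cons.mp hi with rfl | hi
    · exact hk
    · exact hL i hi
  | inv_mul_cancel s hs y _ ih =>
    obtain ⟨k, hk, rfl⟩ := hs
    obtain ⟨L, hL, rfl⟩ := ih
    have : (sPerm hT k)⁻¹ = sPerm hT k := inv_eq_of_mul_eq_one_left (sPerm_mul_self hT k)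
    refine ⟨k :: L, ?_, by simp [this]⟩
    intro i hi
    rcases List.mem_cons.mp hi with rfl | hi
    · exact hk
    · exact hL i hi

open Classical in
/-- the order of the Weyl group from its Poincaré series -/
theorem card_of_poincare (hT : Tab D) (degs : List ℕ)
    (h : ∑ w ∈ univ.filter (fun w => w ∈ weylPerm hT), 1 ^ len D w = (degs.map fun d => ∑ i ∈ range d, 1 ^ i).prod) :
    Nat.card (weylPerm hT) = degs.prod := by
  simp only [one_pow, Finset.sum_const, smul_eq_mul, mul_one, Finset.card_range, List.map_id'] at h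
  rw [← h, Nat.card_eq_fintype_card, Fintype.card_subtype]

theorem card_weylG2 : Nat.card (weylPerm tabG2) = 12 := card_of_poincare tabG2 _ (poincareG2 1)
theorem card_weylB2 : Nat.card (weylPerm tabB2) = 8 := card_of_poincare tabB2 _ (poincareB2 1)
theorem card_weylD4 : Nat.card (weylPerm tabD4) = 192 := card_of_poincare tabD4 _ (poincareD4 1)
theorem card_weylF4 : Nat.card (weylPerm tabF4) = 1152 := card_of_poincare tabF4 _ (poincareF4 1)
theorem card_weylE6 : Nat.card (weylPerm tabE6) = 51840 := card_of_poincare tabE6 _ (poincareE6 1)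
theorem card_weylE7 : Nat.card (weylPerm tabE7) = 2903040 := card_of_poincare tabE7 _ (poincareE7 1)
theorem card_weylE8 : Nat.card (weylPerm tabE8) = 696729600 := card_of_poincare tabE8 _ (poincareE8 1)

end Cfsg.Agent.Lib.Helper36
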