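import Mathlib

/-!
# Counting inversions in a group of permutations of a set with signs: the abstract part of the Poincaré series
-/

set_option autoImplicit false

namespace Cfsg.Agent.Lib.Helper36

open Finset

section

variable {Φ : Type*} [Fintype Φ] [DecidableEq Φ]

/-- the number of positive elements sent to negative ones -/
def invCount (pos : Φ → Bool) (w : Equiv.Perm Φ) : ℕ :=
  (univ.filter fun r => pos r = true ∧ pos (w r) = false).card

theorem invCount_one (pos : Φ → Bool) : invCount pos 1 = 0 := by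
  unfold invCount
  rw [Finset.card_eq_zero, Finset.filter_eq_empty_iff]
  intro r _ h
  rw [Equiv.Perm.one_apply, h.1] at h
  exact absurd h.2 (by simp)

theorem invCount_mul (pos : Φ → Bool) (neg : Φ → Φ) (hneg : ∀ r, pos (neg r) = !pos r)
    (x v : Equiv.Perm Φ) (hx : ∀ r, x (neg r) = neg (x r)) (hv : ∀ r, v (neg r) = neg (v r))
    (A : Φ → Bool) (hA : ∀ r, A r = true → pos r = true) (hvA : ∀ r, A (v r) = A r)
    (hxB : ∀ r, pos r = true → A r = false → pos (x r) = true) :
    invCount pos (x * v) = invCount pos x + invCount pos v := by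
  unfold invCount
  rw [← Finset.card_filter_add_card_filter_not (s := univ.filter fun r => pos r = true ∧ pos ((x * v) r) = false)
    (fun r => A r = true), Finset.filter_filter, Finset.filter_filter]
  congr 1
  · apply Finset.card_equiv v
    intro r
    rw [Finset.mem_filter, Finset.mem_filter]
    simp only [Finset.mem_univ, true_and, Equiv.Perm.mul_apply]
    constructor
    · rintro ⟨⟨_, h2⟩, h3⟩
      exact ⟨hA _ (by rw [hvA, h3]), h2⟩
    · rintro ⟨h1, h2⟩
      have h3 : A (v r) = true := by
        by_contra h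
        rw [Bool.not_eq_true] at h
        rw [hxB _ h1 h] at h2
        exact absurd h2 (by simp)
      rw [hvA] at h3
      exact ⟨⟨hA _ h3, h2⟩, h3⟩
  · congr 1
    ext r
    rw [Finset.mem_filter, Finset.mem_filter]
    simp only [Finset.mem_univ, true_and, Equiv.Perm.mul_apply, Bool.not_eq_true]
    constructor
    · rintro ⟨⟨h1, h2⟩, h3⟩
      refine ⟨h1, ?_⟩
      by_contra h
      rw [Bool.not_eq_false] at h
      rw [hxB _ h (by rw [hvA, h3])] at h2
      exact absurd h2 (by simp)
    · rintro ⟨h1, h2⟩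
      have h3 : A r = false := by
        by_contra h
        rw [Bool.not_eq_false] at h
        have := hA (v r) (by rw [hvA, h])
        rw [h2] at this
        exact absurd this (by simp)
      refine ⟨⟨h1, ?_⟩, h3⟩
      have h4 : pos (neg (v r)) = true := by rw [hneg, h2]; rfl
      have h5 : A (neg (v r)) = false := by
        rw [← hv, hvA]
        by_contra h
        rw [Bool.not_eq_false] at h
        have := hA _ h
        rw [hneg, h1] at this
        exact absurd this (by simp)
      have h6 := hxB _ h4 h5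
      rw [hx, hneg] at h6
      simpa using h6

open Classical in
/-- the Poincaré series of a group of permutations, evaluated at `q` -/
noncomputable def poin (pos : Φ → Bool) (S : Subgroup (Equiv.Perm Φ)) (q : ℕ) : ℕ :=
  ∑ w ∈ univ.filter (fun w => w ∈ S), q ^ invCount pos w

theorem poin_bot (pos : Φ → Bool) (q : ℕ) : poin pos ⊥ q = 1 := by
  classical
  unfold poin
  have : (univ.filter fun w : Equiv.Perm Φ => w ∈ (⊥ : Subgroup (Equiv.Perm Φ))) = {1} := by
    ext w; simp [Subgroup.mem_bot]
  rw [this, Finset.sum_singleton, invCount_one, pow_zero]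

theorem poin_one (pos : Φ → Bool) (S : Subgroup (Equiv.Perm Φ)) : poin pos S 1 = Nat.card S := by
  classical
  unfold poin
  simp only [one_pow, Finset.sum_const, smul_eq_mul, mul_one]
  rw [Nat.card_eq_fintype_card, Fintype.card_subtype]

theorem poin_step (pos : Φ → Bool) (WK WJ : Subgroup (Equiv.Perm Φ)) (m : ℕ) (X : ℕ → Equiv.Perm Φ)
    (hX : ∀ a < m, X a ∈ WK) (hJK : WJ ≤ WK)
    (hcov : ∀ w ∈ WK, ∃ a < m, ∃ v ∈ WJ, w = X a * v)
    (hinj : ∀ a < m, ∀ b < m, ∀ v ∈ WJ, ∀ v' ∈ WJ, X a * v = X b * v' → a = b)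
    (hlen : ∀ a < m, ∀ v ∈ WJ, invCount pos (X a * v) = invCount pos (X a) + invCount pos v) (q : ℕ) :
    poin pos WK q = (∑ a ∈ range m, q ^ invCount pos (X a)) * poin pos WJ q := by
  classical
  unfold poin
  rw [Finset.sum_mul_sum, ← Finset.sum_product']
  symm
  apply Finset.sum_nbij (fun p => X p.1 * p.2)
  · rintro ⟨a, v⟩ h
    simp only [Finset.mem_product, Finset.mem_range, Finset.mem_filter, Finset.mem_univ, true_and] at h ⊢
    exact mul_mem (hX a h.1) (hJK h.2)
  · rintro ⟨a, v⟩ h ⟨b, v'⟩ h' e
    simp only [Finset.coe_product, Set.mem_prod, Finset.mem_coe, Finset.mem_range, Finset.mem_filter,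
      Finset.mem_univ, true_and] at h h' e
    have hab := hinj a h.1 b h'.1 v h.2 v' h'.2 e
    subst hab
    rw [mul_left_cancel e]
  · intro w hw
    simp only [Finset.mem_coe, Finset.mem_filter, Finset.mem_univ, true_and] at hw
    obtain ⟨a, ha, v, hv, rfl⟩ := hcov w hw
    refine ⟨(a, v), ?_, rfl⟩
    simp only [Finset.coe_product, Set.mem_prod, Finset.mem_coe, Finset.mem_range, Finset.mem_filter,
      Finset.mem_univ, true_and]
    exact ⟨ha, hv⟩
  · rintro ⟨a, v⟩ h
    simp only [Finset.mem_product, Finset.mem_range, Finset.mem_filter, Finset.mem_univ, true_and] at h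
    rw [hlen a h.1 v h.2, pow_add]

theorem cover_of_closed (S : Set (Equiv.Perm Φ)) (hS : ∀ s ∈ S, s * s = 1) (WJ : Subgroup (Equiv.Perm Φ)) (m : ℕ)
    (X : ℕ → Equiv.Perm Φ) (hm : 0 < m) (h0 : X 0 = 1)
    (hstep : ∀ s ∈ S, ∀ a < m, (∃ b < m, s * X a = X b) ∨ (∃ u ∈ WJ, s * X a = X a * u)) :
    ∀ w ∈ Subgroup.closure S, ∃ a < m, ∃ v ∈ WJ, w = X a * v := by
  have key : ∀ s ∈ S, ∀ y : Equiv.Perm Φ, (∃ a < m, ∃ v ∈ WJ, y = X a * v) → ∃ a < m, ∃ v ∈ WJ, s * y = X a * v := by
    rintro s hs y ⟨a, ha, v, hv, rfl⟩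
    rcases hstep s hs a ha with ⟨b, hb, e⟩ | ⟨u, hu, e⟩
    · exact ⟨b, hb, v, hv, by rw [← mul_assoc, e]⟩
    · exact ⟨a, ha, u * v, mul_mem hu hv, by rw [← mul_assoc, e, mul_assoc]⟩
  intro w hw
  induction hw using Subgroup.closure_induction_left with
  | one => exact ⟨0, hm, 1, one_mem _, by rw [h0, one_mul]⟩
  | mul_left s hs y _ ih => exact key s hs y ih
  | inv_mul_cancel s hs y _ ih =>
    have : s⁻¹ = s := inv_eq_of_mul_eq_one_left (hS s hs)
    rw [this]
    exact key s hs y ih

end

/-! ### polynomials as lists of coefficients -/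

/-- value at `q` of the polynomial with the given list of coefficients -/
def evalL (L : List ℕ) (q : ℕ) : ℕ := List.rec 0 (fun c _ ih => c + q * ih) L

theorem evalL_nil (q : ℕ) : evalL [] q = 0 := rfl
theorem evalL_cons (c : ℕ) (L : List ℕ) (q : ℕ) : evalL (c :: L) q = c + q * evalL L q := rfl

/-- add one to the coefficient of degree `d` -/
def incrL (L : List ℕ) : ℕ → List ℕ :=
  List.rec (motive := fun _ => ℕ → List ℕ)
    (fun d => Nat.rec [1] (fun _ ih => 0 :: ih) d)
    (fun c L ih d => Nat.rec (motive := fun _ => List ℕ) (Nat.succ c :: L) (fun d' _ => c :: ih d') d) L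

theorem incrL_nil_zero : incrL [] 0 = [1] := rfl
theorem incrL_nil_succ (d : ℕ) : incrL [] (d + 1) = 0 :: incrL [] d := rfl
theorem incrL_cons_zero (c : ℕ) (L : List ℕ) : incrL (c :: L) 0 = (c + 1) :: L := rfl
theorem incrL_cons_succ (c : ℕ) (L : List ℕ) (d : ℕ) : incrL (c :: L) (d + 1) = c :: incrL L d := rfl

theorem evalL_incrL (L : List ℕ) (d q : ℕ) : evalL (incrL L d) q = evalL L q + q ^ d := by
  induction L generalizing d with
  | nil =>
    induction d with
    | zero => simp [incrL_nil_zero, evalL_cons, evalL_nil]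
    | succ d ih => rw [incrL_nil_succ, evalL_cons, ih, evalL_nil, pow_succ]; ring
  | cons c L ih =>
    cases d with
    | zero => rw [incrL_cons_zero, evalL_cons, evalL_cons]; ring
    | succ d => rw [incrL_cons_succ, evalL_cons, evalL_cons, ih, pow_succ]; ring

/-- the histogram of `f` on `0, …, m - 1` -/
def histL (f : ℕ → ℕ) (m : ℕ) : List ℕ := Nat.rec [] (fun a ih => incrL ih (f a)) m

theorem evalL_histL (f : ℕ → ℕ) (m q : ℕ) : evalL (histL f m) q = ∑ a ∈ range m, q ^ f a := by
  induction m with
  | zero => rfl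
  | succ m ih =>
    have : histL f (m + 1) = incrL (histL f m) (f m) := rfl
    rw [this, evalL_incrL, ih, Finset.sum_range_succ]

/-- sum of two polynomials -/
def addL (L : List ℕ) : List ℕ → List ℕ :=
  List.rec (motive := fun _ => List ℕ → List ℕ) (fun M => M)
    (fun c _ ih M => List.rec (motive := fun _ => List ℕ) (c :: ih []) (fun d M' _ => Nat.add c d :: ih M') M) L

theorem addL_nil (M : List ℕ) : addL [] M = M := rfl
theorem addL_cons_nil (c : ℕ) (L : List ℕ) : addL (c :: L) [] = c :: addL L [] := rfl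
theorem addL_cons_cons (c : ℕ) (L : List ℕ) (d : ℕ) (M : List ℕ) : addL (c :: L) (d :: M) = (c + d) :: addL L M := rfl

theorem evalL_addL (L M : List ℕ) (q : ℕ) : evalL (addL L M) q = evalL L q + evalL M q := by
  induction L generalizing M with
  | nil => rw [addL_nil, evalL_nil, zero_add]
  | cons c L ih =>
    cases M with
    | nil => rw [addL_cons_nil, evalL_cons, evalL_cons, ih, evalL_nil]; ring
    | cons d M => rw [addL_cons_cons, evalL_cons, evalL_cons, evalL_cons, ih]; ring

/-- multiplication by a constant -/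
def smulL (c : ℕ) (L : List ℕ) : List ℕ := List.rec [] (fun d _ ih => Nat.mul c d :: ih) L

theorem evalL_smulL (c : ℕ) (L : List ℕ) (q : ℕ) : evalL (smulL c L) q = c * evalL L q := by
  induction L with
  | nil => rfl
  | cons d L ih =>
    have : smulL c (d :: L) = (c * d) :: smulL c L := rfl
    rw [this, evalL_cons, evalL_cons, ih]; ring

/-- product of two polynomials -/
def mulL (L M : List ℕ) : List ℕ := List.rec [] (fun c _ ih => addL (smulL c M) (0 :: ih)) L

theorem evalL_mulL (L M : List ℕ) (q : ℕ) : evalL (mulL L M) q = evalL L q * evalL M q := by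
  induction L with
  | nil => simp [mulL, evalL_nil]
  | cons c L ih =>
    have : mulL (c :: L) M = addL (smulL c M) (0 :: mulL L M) := rfl
    rw [this, evalL_addL, evalL_smulL, evalL_cons, evalL_cons, ih]; ring

/-- product of a list of polynomials -/
def prodL (Ls : List (List ℕ)) : List ℕ := List.rec [1] (fun L _ ih => mulL L ih) Ls

theorem evalL_prodL (Ls : List (List ℕ)) (q : ℕ) : evalL (prodL Ls) q = (Ls.map fun L => evalL L q).prod := by
  induction Ls with
  | nil => simp [prodL, evalL_cons, evalL_nil]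
  | cons L Ls ih =>
    have : prodL (L :: Ls) = mulL L (prodL Ls) := rfl
    rw [this, evalL_mulL, ih, List.map_cons, List.prod_cons]

theorem evalL_replicate (d q : ℕ) : evalL (List.replicate d 1) q = ∑ i ∈ range d, q ^ i := by
  induction d with
  | zero => rfl
  | succ d ih =>
    rw [List.replicate_succ, evalL_cons, ih, Finset.sum_range_succ', Finset.mul_sum, pow_zero, add_comm]
    congr 1
    apply Finset.sum_congr rfl
    intro i _
    rw [pow_succ]; ring

/-- number of `r < n` with `p r` -/
def countN (p : ℕ → Bool) (n : ℕ) : ℕ := Nat.rec 0 (fun r ih => Bool.rec ih (Nat.succ ih) (p r)) n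

theorem countN_eq (p : ℕ → Bool) (n : ℕ) : countN p n = (univ.filter fun r : Fin n => p r = true).card := by
  rw [Finset.card_filter, Fin.sum_univ_eq_sum_range (fun i => if p i = true then 1 else 0)]
  induction n with
  | zero => rfl
  | succ n ih =>
    have : countN p (n + 1) = Bool.rec (countN p n) (Nat.succ (countN p n)) (p n) := rfl
    rw [this, Finset.sum_range_succ, ← ih]
    cases p n <;> simp

end Cfsg.Agent.Lib.Helper36
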