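import Cfsg.Agent.Lib.Helper36.ChevPoinT
import Cfsg.Agent.Lib.Helper18.ChevTabData

/-!
# The Poincaré series of the Weyl group of type G2 (generated tables)
-/

set_option autoImplicit false
set_option maxRecDepth 100000

namespace Cfsg.Agent.Lib.Helper36

open Cfsg.Lie Cfsg.Agent.Lib.Helper18 Finset

def pstepG2_0 : PStep where
  m := 6
  K := 3
  J := 1
  β := 11
  X := 0x5030207010a040908060b0106040208000b030907050a050a070309000b0208040106060b080409010a02070300050a0b090708050603040200010b0a09080706050403020100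
  tr := 0x40605030204030100020106
  par := 0x10400030102000101000000
  inv := 0x100000002030000000405
  Bm := 0x80
  pl := [1, 1, 1, 1, 1, 1]

theorem pstepG2_0_c1 : pstepG2_0.chk1 12 = true := by decide +kernel
theorem pstepG2_0_c2 : pstepG2_0.chk2 12 2 reflTG2 = true := by decide +kernel
theorem pstepG2_0_c3 : pstepG2_0.chk3 2 = true := by decide +kernel
theorem pstepG2_0_c4 : pstepG2_0.chk4 12 = true := by decide +kernel
theorem pstepG2_0_c5 : pstepG2_0.chk5 12 2 reflTG2 = true := by decide +kernel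
theorem pstepG2_0_c7 : pstepG2_0.chk7 12 = true := by decide +kernel
theorem pstepG2_0_c8 : pstepG2_0.chk8 12 = true := by decide +kernel
theorem pstepG2_0_ok : StepOK pstepG2_0 12 2 reflTG2 := ⟨pstepG2_0_c1, pstepG2_0_c2, pstepG2_0_c3, pstepG2_0_c4, pstepG2_0_c5, pstepG2_0_c7, pstepG2_0_c8⟩

def pstepG2_1 : PStep where
  m := 2
  K := 1
  J := 0
  β := 5
  X := 0xb060809040a0107020305000b0a09080706050403020100
  tr := 0x1
  par := 0x0
  inv := 0x100
  Bm := 0x0
  pl := [1, 1]

theorem pstepG2_1_c1 : pstepG2_1.chk1 12 = true := by decide +kernel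
theorem pstepG2_1_c2 : pstepG2_1.chk2 12 2 reflTG2 = true := by decide +kernel
theorem pstepG2_1_c3 : pstepG2_1.chk3 2 = true := by decide +kernel
theorem pstepG2_1_c4 : pstepG2_1.chk4 12 = true := by decide +kernel
theorem pstepG2_1_c5 : pstepG2_1.chk5 12 2 reflTG2 = true := by decide +kernel
theorem pstepG2_1_c7 : pstepG2_1.chk7 12 = true := by decide +kernel
theorem pstepG2_1_c8 : pstepG2_1.chk8 12 = true := by decide +kernel
theorem pstepG2_1_ok : StepOK pstepG2_1 12 2 reflTG2 := ⟨pstepG2_1_c1, pstepG2_1_c2, pstepG2_1_c3, pstepG2_1_c4, pstepG2_1_c5, pstepG2_1_c7, pstepG2_1_c8⟩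

theorem chainG2 : PChain 12 2 reflTG2 3 [pstepG2_0, pstepG2_1] :=
  (PChain.cons _ _ pstepG2_0_ok (PChain.cons _ _ pstepG2_1_ok PChain.nil))

open Classical in
/-- The Poincaré series of the Weyl group of type G2. -/
theorem poincareG2 (q : ℕ) :
    ∑ w ∈ univ.filter (fun w => w ∈ weylPerm tabG2), q ^ len chevG2 w =
      ([2, 6].map fun d => ∑ i ∈ range d, q ^ i).prod :=
  poincare_of_chain tabG2 agreeG2 3 _ chainG2 (by decide) _ (by decide +kernel) q

end Cfsg.Agent.Lib.Helper36
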