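import Cfsg.Agent.Lib.Helper36.ChevPoinA
import Cfsg.Agent.Lib.Helper36.ChevEngine
import Cfsg.Agent.Lib.Helper18.ChevN

/-!
# The Poincaré series of the Weyl group of a Chevalley datum, by a chain of parabolic subgroups

One step of the chain is a pair of sets `J ⊆ K` of fundamental reflections together with explicit coset
representatives `x_a` of `W_J` in `W_K`, stored as permutations of the roots.
-/

set_option autoImplicit false

namespace Cfsg.Agent.Lib.Helper36

open Cfsg.Lie Cfsg.Agent.Lib.Helper18 Finset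

variable {D : ChevalleyDatum}

/-- the fundamental reflection `w_{p_i}` as a permutation of the roots (`1` if `i` is out of range) -/
def sPerm (hT : Tab D) (i : ℕ) : Equiv.Perm (Fin D.nroots) :=
  if hi : i < D.rank then
    { toFun := fun r => ⟨D.reflectRoot i r, hT.refl_lt i r hi r.2⟩
      invFun := fun r => ⟨D.reflectRoot i r, hT.refl_lt i r hi r.2⟩
      left_inv := fun r => Fin.ext (hT.refl_refl i r hi r.2)
      right_inv := fun r => Fin.ext (hT.refl_refl i r hi r.2) }
  else 1

theorem sPerm_apply (hT : Tab D) {i : ℕ} (hi : i < D.rank) (r : Fin D.nroots) :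
    ((sPerm hT i r : Fin D.nroots) : ℕ) = D.reflectRoot i r := by
  unfold sPerm
  rw [dif_pos hi]
  rfl

theorem sPerm_mul_self (hT : Tab D) (i : ℕ) : sPerm hT i * sPerm hT i = 1 := by
  by_cases hi : i < D.rank
  · ext r
    rw [Equiv.Perm.mul_apply, sPerm_apply hT hi, sPerm_apply hT hi, hT.refl_refl i r hi r.2]
    rfl
  · unfold sPerm
    rw [dif_neg hi, one_mul]

/-- positivity of a root, as a Boolean -/
def posB (D : ChevalleyDatum) (r : Fin D.nroots) : Bool := Nat.ble (D.nroots / 2) r

/-- the opposite root -/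
def negF (D : ChevalleyDatum) (r : Fin D.nroots) : Fin D.nroots := ⟨D.nroots - 1 - r, by have := r.2; omega⟩

theorem posB_negF (hT : Tab D) (r : Fin D.nroots) : posB D (negF D r) = !posB D r := by
  have h1 := hT.even
  have h2 := r.2
  unfold posB negF
  by_cases h : D.nroots / 2 ≤ r.val
  · rw [Nat.ble_eq_true_of_le h]
    cases hb : Nat.ble (D.nroots / 2) (D.nroots - 1 - r.val)
    · rfl
    · have := Nat.le_of_ble_eq_true hb
      omega
  · have h3 : Nat.ble (D.nroots / 2) r.val = false := by
      cases hb : Nat.ble (D.nroots / 2) r.val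
      · rfl
      · exact absurd (Nat.le_of_ble_eq_true hb) h
    rw [h3]
    exact Nat.ble_eq_true_of_le (by show D.nroots / 2 ≤ D.nroots - 1 - r.val; omega)

theorem sPerm_negF (hT : Tab D) (i : ℕ) (r : Fin D.nroots) : sPerm hT i (negF D r) = negF D (sPerm hT i r) := by
  by_cases hi : i < D.rank
  · apply Fin.ext
    rw [sPerm_apply hT hi]
    show D.reflectRoot i (D.nroots - 1 - r) = D.nroots - 1 - (sPerm hT i r : Fin D.nroots)
    rw [sPerm_apply hT hi, hT.refl_neg i r hi r.2]
  · unfold sPerm
    rw [dif_neg hi]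
    rfl

/-- bit `k` of `K` -/
def bitB (K k : ℕ) : Bool := Nat.beq (Nat.land (Nat.shiftRight K k) 1) 1

/-- negation, by `Bool.rec` -/
def bnot (x : Bool) : Bool := Bool.rec true false x

theorem bnot_eq_true {x : Bool} : bnot x = true ↔ x = false := by cases x <;> simp [bnot]

/-- the subgroup generated by the fundamental reflections in the set with bit mask `K` -/
def parab (hT : Tab D) (K : ℕ) : Subgroup (Equiv.Perm (Fin D.nroots)) :=
  Subgroup.closure {s | ∃ k, k < D.rank ∧ bitB K k = true ∧ s = sPerm hT k}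

/-- the Weyl group, as a group of permutations of the roots -/
def weylPerm (hT : Tab D) : Subgroup (Equiv.Perm (Fin D.nroots)) :=
  Subgroup.closure {s | ∃ k, k < D.rank ∧ s = sPerm hT k}

theorem parab_full (hT : Tab D) (K : ℕ) (hK : ∀ k < D.rank, bitB K k = true) : parab hT K = weylPerm hT := by
  unfold parab weylPerm
  congr 1
  ext s
  constructor
  · rintro ⟨k, hk, _, rfl⟩; exact ⟨k, hk, rfl⟩
  · rintro ⟨k, hk, rfl⟩; exact ⟨k, hk, hK k hk, rfl⟩

theorem parab_zero (hT : Tab D) : parab hT 0 = ⊥ := by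
  unfold parab
  rw [Subgroup.closure_eq_bot_iff]
  rintro s ⟨k, _, h, _⟩
  exfalso
  have : bitB 0 k = false := by
    unfold bitB
    have : Nat.land (Nat.shiftRight 0 k) 1 = 0 := by
      show (0 >>> k) &&& 1 = 0
      simp
    rw [this]; rfl
  rw [this] at h
  exact absurd h (by simp)

theorem parab_negF (hT : Tab D) (K : ℕ) (w : Equiv.Perm (Fin D.nroots)) (hw : w ∈ parab hT K) :
    ∀ r, w (negF D r) = negF D (w r) := by
  have hinv : ∀ r, negF D (negF D r) = r := by
    intro r; apply Fin.ext; show D.nroots - 1 - (D.nroots - 1 - r.val) = r.val; have := r.2; omega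
  induction hw using Subgroup.closure_induction with
  | mem x hx =>
    obtain ⟨k, _, _, rfl⟩ := hx
    exact sPerm_negF hT k
  | one => intro r; rfl
  | mul x y _ _ hx hy => intro r; rw [Equiv.Perm.mul_apply, hy, hx]; rfl
  | inv x _ hx =>
    intro r
    rw [Equiv.Perm.inv_eq_iff_eq, hx]
    simp

/-- data of one step -/
structure PStep where
  /-- number of cosets -/
  m : ℕ
  K : ℕ
  J : ℕ
  /-- a root fixed by `W_J` whose images under the representatives are distinct -/
  β : ℕ
  /-- the representatives: `m` rows of `n` bytes -/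
  X : ℕ
  /-- `m` rows of `l` bytes: `b` if `s_k x_a = x_b`, `m + j` if `s_k x_a = x_a s_j` -/
  tr : ℕ
  /-- `m` pairs of bytes `(b, k)` with `x_a = s_k x_b`, `b < a` -/
  par : ℕ
  /-- `n` bytes: the index `a` with `x_a β = r` -/
  inv : ℕ
  /-- `n` bits: the positive roots of the subsystem of `J` -/
  Bm : ℕ
  /-- coefficients of `Σ_a q ^ len x_a` -/
  pl : List ℕ

namespace PStep

variable (P : PStep)

noncomputable def row (n a : ℕ) : ℕ :=
  Nat.land (Nat.shiftRight P.X (Nat.mul (Nat.mul 8 n) a)) (Nat.sub (Nat.pow 2 (Nat.mul 8 n)) 1)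

noncomputable def xe (n a r : ℕ) : ℕ := byte (P.row n a) r

noncomputable def tre (l a k : ℕ) : ℕ := byte P.tr (Nat.add (Nat.mul a l) k)

noncomputable def isA (n r : ℕ) : Bool := band (Nat.ble (n / 2) r) (bnot (bitB P.Bm r))

noncomputable def trOK (n l R a k : ℕ) : Bool :=
  force (P.row n a) fun ra => force (P.tre l a k) fun c =>
    Bool.rec
      (force (Nat.sub c P.m) fun j => band (Nat.blt j l) (band (bitB P.J j)
        (allB n fun r => Nat.beq (lk R n k (byte ra r)) (byte ra (lk R n j r)))))
      (force (P.row n c) fun rc => allB n fun r => Nat.beq (lk R n k (byte ra r)) (byte rc r))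
      (Nat.blt c P.m)

theorem trOK_spec (n l R a k : ℕ) (h : P.trOK n l R a k = true) :
    (P.tre l a k < P.m ∧ ∀ r < n, lk R n k (P.xe n a r) = P.xe n (P.tre l a k) r) ∨
    (∃ j, j < l ∧ bitB P.J j = true ∧ ∀ r < n, lk R n k (P.xe n a r) = P.xe n a (lk R n j r)) := by
  unfold trOK at h
  simp only [force_eq] at h
  cases hc : Nat.blt (P.tre l a k) P.m
  · rw [hc] at h
    change band _ (band _ (allB n _)) = true at h
    rw [band_eq_true, band_eq_true, allB_iff] at h
    right
    exact ⟨_, blt_iff.mp h.1, h.2.1, fun r hr => nbeq_iff.mp (h.2.2 r hr)⟩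
  · rw [hc] at h
    change allB n _ = true at h
    rw [allB_iff] at h
    left
    exact ⟨blt_iff.mp hc, fun r hr => nbeq_iff.mp (h r hr)⟩

theorem trOK_lt (n l R a k : ℕ) (h : P.trOK n l R a k = true) (hc : P.tre l a k < P.m) :
    ∀ r < n, lk R n k (P.xe n a r) = P.xe n (P.tre l a k) r := by
  unfold trOK at h
  simp only [force_eq] at h
  rw [blt_iff.mpr hc] at h
  change allB n _ = true at h
  rw [allB_iff] at h
  exact fun r hr => nbeq_iff.mp (h r hr)

noncomputable def chk1 (n : ℕ) : Bool :=
  band (Nat.blt 0 P.m) (force (P.row n 0) fun r0 => allB n fun r => Nat.beq (byte r0 r) r)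

noncomputable def chk2 (n l R : ℕ) : Bool :=
  allB P.m fun a => allB l fun k => bor (bnot (bitB P.K k)) (P.trOK n l R a k)

noncomputable def chk3 (l : ℕ) : Bool :=
  allB P.m fun a => bor (Nat.beq a 0)
    (force (byte P.par (Nat.mul 2 a)) fun b => force (byte P.par (Nat.add (Nat.mul 2 a) 1)) fun k =>
      band (Nat.blt b a) (band (Nat.blt k l) (band (bitB P.K k) (Nat.beq (P.tre l b k) a))))

noncomputable def chk4 (n : ℕ) : Bool :=
  band (Nat.blt P.β n) (allB P.m fun a => Nat.beq (byte P.inv (P.xe n a P.β)) a)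

noncomputable def chk5 (n l R : ℕ) : Bool :=
  allB l fun j => bor (bnot (bitB P.J j)) (band (bitB P.K j) (band (Nat.beq (lk R n j P.β) P.β)
    (allB n fun r => bor (bnot (P.isA n r)) (P.isA n (lk R n j r)))))

noncomputable def chk7 (n : ℕ) : Bool :=
  allB P.m fun a => force (P.row n a) fun ra => allB n fun r =>
    bor (Nat.blt r (n / 2)) (bor (P.isA n r) (Nat.ble (n / 2) (byte ra r)))

noncomputable def cnt (n a : ℕ) : ℕ :=
  force (P.row n a) fun ra => countN (fun r => band (Nat.ble (n / 2) r) (Nat.blt (byte ra r) (n / 2))) n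

end PStep

/-- equality of lists of numbers -/
def beqL (L : List ℕ) : List ℕ → Bool :=
  List.rec (motive := fun _ => List ℕ → Bool) (fun M => List.rec true (fun _ _ _ => false) M)
    (fun c _ ih M => List.rec (motive := fun _ => Bool) false (fun d M' _ => band (Nat.beq c d) (ih M')) M) L

theorem eq_of_beqL (L M : List ℕ) (h : beqL L M = true) : L = M := by
  induction L generalizing M with
  | nil =>
    cases M with
    | nil => rfl
    | cons d M => exact absurd h (by simp [beqL])
  | cons c L ih =>
    cases M with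
    | nil => exact absurd h (by simp [beqL])
    | cons d M =>
      change band (Nat.beq c d) (beqL L M) = true at h
      rw [band_eq_true] at h
      rw [nbeq_iff.mp h.1, ih M h.2]

noncomputable def PStep.chk8 (P : PStep) (n : ℕ) : Bool := beqL (histL (P.cnt n) P.m) P.pl

/-- all the checks of one step -/
structure StepOK (P : PStep) (n l R : ℕ) : Prop where
  c1 : P.chk1 n = true
  c2 : P.chk2 n l R = true
  c3 : P.chk3 l = true
  c4 : P.chk4 n = true
  c5 : P.chk5 n l R = true
  c7 : P.chk7 n = true
  c8 : P.chk8 n = true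

theorem refl_eq_lk {S R : ℕ} (hag : agreeB D S R = true) (i r : ℕ) (hi : i < D.rank) (hr : r < D.nroots) :
    D.reflectRoot i r = lk R D.nroots i r := by
  simp only [agreeB, band_eq_true, allB_iff, nbeq_iff, beq_iff_eq] at hag
  exact (hag.2 i hi).2 r hr

theorem step_sound (hT : Tab D) {S R : ℕ} (hag : agreeB D S R = true) (P : PStep)
    (h : StepOK P D.nroots D.rank R) (q : ℕ) :
    poin (posB D) (parab hT P.K) q = evalL P.pl q * poin (posB D) (parab hT P.J) q := by
  have hR := refl_eq_lk hag
  -- unpack the checks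
  have c1 := h.c1
  unfold PStep.chk1 at c1
  rw [band_eq_true, force_eq, allB_iff] at c1
  have hm : 0 < P.m := blt_iff.mp c1.1
  have c1' : ∀ r < D.nroots, P.xe D.nroots 0 r = r := fun r hr => nbeq_iff.mp (c1.2 r hr)
  have c2 := h.c2
  unfold PStep.chk2 at c2
  simp only [allB_iff, bor_eq_true, bnot_eq_true] at c2
  have c2' : ∀ a < P.m, ∀ k < D.rank, bitB P.K k = true → P.trOK D.nroots D.rank R a k = true := by
    intro a ha k hk hb
    rcases c2 a ha k hk with e | e
    · rw [hb] at e; exact absurd e (by simp)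
    · exact e
  have c3 := h.c3
  unfold PStep.chk3 at c3
  simp only [allB_iff, bor_eq_true, band_eq_true, force_eq, nbeq_iff, blt_iff] at c3
  have c4 := h.c4
  unfold PStep.chk4 at c4
  simp only [allB_iff, band_eq_true, nbeq_iff, blt_iff] at c4
  have c5 := h.c5
  unfold PStep.chk5 at c5
  simp only [allB_iff, bor_eq_true, band_eq_true, bnot_eq_true, nbeq_iff] at c5
  have c5' : ∀ j < D.rank, bitB P.J j = true → bitB P.K j = true ∧ lk R D.nroots j P.β = P.β ∧
      ∀ r < D.nroots, P.isA D.nroots r = true → P.isA D.nroots (lk R D.nroots j r) = true := by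
    intro j hj hb
    rcases c5 j hj with e | e
    · rw [hb] at e; exact absurd e (by simp)
    · refine ⟨e.1, e.2.1, fun r hr hA => ?_⟩
      rcases e.2.2 r hr with e' | e'
      · rw [hA] at e'; exact absurd e' (by simp)
      · exact e'
  have c7 := h.c7
  unfold PStep.chk7 at c7
  simp only [allB_iff, bor_eq_true, force_eq, blt_iff] at c7
  have c8 := eq_of_beqL _ _ h.c8
  -- the representatives
  have ex : ∀ a, a < P.m → ∃ x ∈ parab hT P.K, ∀ r : Fin D.nroots,
      ((x r : Fin D.nroots) : ℕ) = P.xe D.nroots a r := by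
    intro a
    induction a using Nat.strong_induction_on with
    | _ a ih =>
      intro ha
      rcases Nat.eq_zero_or_pos a with rfl | hpos
      · exact ⟨1, one_mem _, fun r => (c1' r r.2).symm⟩
      · rcases c3 a ha with e | ⟨hb, hk, hKk, htr⟩
        · omega
        · obtain ⟨x, hx, hxr⟩ := ih _ hb (hb.trans ha)
          refine ⟨sPerm hT _ * x, mul_mem (Subgroup.subset_closure ⟨_, hk, hKk, rfl⟩) hx, fun r => ?_⟩
          rw [Equiv.Perm.mul_apply, sPerm_apply hT hk, hR _ _ hk (x r).2, hxr]
          rw [P.trOK_lt _ _ _ _ _ (c2' _ (hb.trans ha) _ hk hKk) (by rw [htr]; exact ha) r r.2, htr]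
  choose! X hXmem hXval using ex
  have h0 : X 0 = 1 := by
    ext r
    rw [hXval 0 hm r, c1' r r.2]
    rfl
  have hJK : parab hT P.J ≤ parab hT P.K := by
    apply Subgroup.closure_mono
    rintro s ⟨k, hk, hb, rfl⟩
    exact ⟨k, hk, (c5' k hk hb).1, rfl⟩
  have hcov : ∀ w ∈ parab hT P.K, ∃ a < P.m, ∃ v ∈ parab hT P.J, w = X a * v := by
    apply cover_of_closed _ _ (parab hT P.J) P.m X hm h0
    · rintro s ⟨k, hk, hb, rfl⟩ a ha
      rcases P.trOK_spec _ _ _ _ _ (c2' a ha k hk hb) with ⟨hc, e⟩ | ⟨j, hj, hJj, e⟩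
      · left
        refine ⟨_, hc, ?_⟩
        ext r
        rw [Equiv.Perm.mul_apply, sPerm_apply hT hk, hR _ _ hk (X a r).2, hXval a ha, e r r.2, hXval _ hc]
      · right
        refine ⟨sPerm hT j, Subgroup.subset_closure ⟨j, hj, hJj, rfl⟩, ?_⟩
        ext r
        rw [Equiv.Perm.mul_apply, Equiv.Perm.mul_apply, sPerm_apply hT hk, hR _ _ hk (X a r).2, hXval a ha, e r r.2,
          hXval a ha, sPerm_apply hT hj, hR _ _ hj r.2]
    · rintro s ⟨k, _, _, rfl⟩
      exact sPerm_mul_self hT k
  have hfix : ∀ v ∈ parab hT P.J, v ⟨P.β, c4.1⟩ = ⟨P.β, c4.1⟩ := by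
    intro v hv
    induction hv using Subgroup.closure_induction with
    | mem x hx =>
      obtain ⟨j, hj, hb, rfl⟩ := hx
      apply Fin.ext
      rw [sPerm_apply hT hj, hR _ _ hj c4.1]
      exact (c5' j hj hb).2.1
    | one => rfl
    | mul x y _ _ hx hy => rw [Equiv.Perm.mul_apply, hy, hx]
    | inv x _ hx => rw [Equiv.Perm.inv_eq_iff_eq, hx]
  have hinj : ∀ a < P.m, ∀ b < P.m, ∀ v ∈ parab hT P.J, ∀ v' ∈ parab hT P.J, X a * v = X b * v' → a = b := by
    intro a ha b hb v hv v' hv' e
    have e1 := congrArg (fun w : Equiv.Perm (Fin D.nroots) => ((w ⟨P.β, c4.1⟩ : Fin D.nroots) : ℕ)) e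
    simp only [Equiv.Perm.mul_apply, hfix v hv, hfix v' hv', hXval a ha, hXval b hb] at e1
    rw [← c4.2 a ha, ← c4.2 b hb, e1]
  have hvA : ∀ v ∈ parab hT P.J, ∀ r : Fin D.nroots, P.isA D.nroots (v r) = P.isA D.nroots r := by
    intro v hv
    induction hv using Subgroup.closure_induction with
    | mem x hx =>
      obtain ⟨j, hj, hb, rfl⟩ := hx
      intro r
      have key : ∀ r : Fin D.nroots, P.isA D.nroots r = true → P.isA D.nroots (sPerm hT j r) = true := by
        intro r hr
        rw [sPerm_apply hT hj, hR _ _ hj r.2]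
        exact (c5' j hj hb).2.2 r r.2 hr
      rw [Bool.eq_iff_iff]
      constructor
      · intro h1
        have h2 := key _ h1
        have h3 : sPerm hT j (sPerm hT j r) = r := by
          rw [← Equiv.Perm.mul_apply, sPerm_mul_self]; rfl
        rwa [h3] at h2
      · exact key r
    | one => intro r; rfl
    | mul x y _ _ hx hy => intro r; rw [Equiv.Perm.mul_apply, hx, hy]
    | inv x _ hx =>
      intro r
      have := hx (x⁻¹ r)
      rw [← this]
      simp
  have hlen : ∀ a < P.m, ∀ v ∈ parab hT P.J,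
      invCount (posB D) (X a * v) = invCount (posB D) (X a) + invCount (posB D) v := by
    intro a ha v hv
    apply invCount_mul (posB D) (negF D) (posB_negF hT) (X a) v (parab_negF hT P.K _ (hXmem a ha))
      (parab_negF hT P.J v hv) (fun r => P.isA D.nroots r)
    · intro r hr
      unfold PStep.isA at hr
      rw [band_eq_true] at hr
      exact hr.1
    · exact hvA v hv
    · intro r hr hAr
      rcases c7 a ha r r.2 with e | e | e
      · have := Nat.le_of_ble_eq_true hr
        omega
      · rw [hAr] at e; exact absurd e (by simp)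
      · unfold posB
        rw [hXval a ha]
        exact e
  rw [poin_step (posB D) _ _ P.m X hXmem hJK hcov hinj hlen q, ← c8, evalL_histL]
  congr 1
  apply Finset.sum_congr rfl
  intro a ha
  have ha' := Finset.mem_range.mp ha
  congr 1
  unfold PStep.cnt invCount
  rw [force_eq, countN_eq]
  congr 1
  apply Finset.filter_congr
  intro r _
  rw [band_eq_true, blt_iff]
  unfold posB
  rw [hXval a ha']
  constructor
  · rintro ⟨h1, h2⟩
    refine ⟨h1, ?_⟩
    by_contra hc
    rw [Nat.ble_eq_true_of_le (by show D.nroots / 2 ≤ P.xe D.nroots a r; unfold PStep.xe; omega)] at h2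
    exact absurd h2 (by simp)
  · rintro ⟨h1, h2⟩
    refine ⟨h1, ?_⟩
    cases hb : Nat.ble (D.nroots / 2) (P.xe D.nroots a r)
    · rfl
    · have := Nat.le_of_ble_eq_true hb
      unfold PStep.xe at this
      omega

/-- a chain of steps from `K` down to the empty set -/
inductive PChain (n l R : ℕ) : ℕ → List PStep → Prop
  | nil : PChain n l R 0 []
  | cons (P : PStep) (Ps : List PStep) (h : StepOK P n l R) (hc : PChain n l R P.J Ps) : PChain n l R P.K (P :: Ps)

theorem chain_sound (hT : Tab D) {S R : ℕ} (hag : agreeB D S R = true) (K : ℕ) (Ps : List PStep)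
    (h : PChain D.nroots D.rank R K Ps) (q : ℕ) :
    poin (posB D) (parab hT K) q = evalL (prodL (Ps.map fun P => P.pl)) q := by
  induction h with
  | nil => rw [parab_zero, poin_bot]; rfl
  | cons P Ps h _ ih =>
    rw [step_sound hT hag P h q, ih, List.map_cons]
    show _ = evalL (mulL P.pl (prodL (Ps.map fun P => P.pl))) q
    rw [evalL_mulL]

/-- the number of positive roots made negative by a permutation of the roots -/
def len (D : ChevalleyDatum) (w : Equiv.Perm (Fin D.nroots)) : ℕ :=
  (univ.filter fun r : Fin D.nroots => D.IsPosRoot r ∧ D.IsNegRoot (w r)).card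

theorem len_eq (hT : Tab D) (w : Equiv.Perm (Fin D.nroots)) : len D w = invCount (posB D) w := by
  unfold len invCount
  congr 1
  apply Finset.filter_congr
  intro r _
  rw [hT.pos_iff r r.2, hT.neg_iff _ (w r).2]
  unfold posB
  constructor
  · rintro ⟨h1, h2⟩
    refine ⟨Nat.ble_eq_true_of_le h1, ?_⟩
    cases hb : Nat.ble (D.nroots / 2) (w r)
    · rfl
    · have := Nat.le_of_ble_eq_true hb
      omega
  · rintro ⟨h1, h2⟩
    refine ⟨Nat.le_of_ble_eq_true h1, ?_⟩
    by_contra hc
    rw [Nat.ble_eq_true_of_le (by omega)] at h2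
    exact absurd h2 (by simp)

open Classical in
/-- The Poincaré series of the Weyl group from a chain of steps. -/
theorem poincare_of_chain (hT : Tab D) {S R : ℕ} (hag : agreeB D S R = true) (K : ℕ) (Ps : List PStep)
    (h : PChain D.nroots D.rank R K Ps) (hK : ∀ k < D.rank, bitB K k = true) (degs : List ℕ)
    (hd : beqL (prodL (Ps.map fun P => P.pl)) (prodL (degs.map fun d => List.replicate d 1)) = true) (q : ℕ) :
    ∑ w ∈ univ.filter (fun w => w ∈ weylPerm hT), q ^ len D w = (degs.map fun d => ∑ i ∈ range d, q ^ i).prod := by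
  have h1 := chain_sound hT hag K Ps h q
  rw [parab_full hT K hK, eq_of_beqL _ _ hd, evalL_prodL, List.map_map] at h1
  have h2 : ((fun L => evalL L q) ∘ fun d => List.replicate d 1) = fun d => ∑ i ∈ range d, q ^ i := by
    funext d
    exact evalL_replicate d q
  rw [h2] at h1
  rw [← h1]
  unfold poin
  apply Finset.sum_congr rfl
  intro w _
  rw [len_eq hT]

end Cfsg.Agent.Lib.Helper36
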